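import Mathlib
import Cfsg.Prelude.Def_FusionSystem
import Cfsg.Prelude.Def_PLocal
import Cfsg.Agent.Eq.Def_PLocal
import Cfsg.Agent.Fusion.Alperin.Criteria

/-!
In a saturated fusion system over a p-group of class at most `n(p-1)+1` the agemo `℧ⁿ` of the centre
is normal.
-/

set_option autoImplicit false

namespace CfsgLib.FusPowerCentre

open CfsgLib.Fus Cfsg.FusionSystem CfsgLib.Fusion.Alperin

section algebra

open Polynomial

theorem exists_pow_prime_sub {p : ℕ} (hp : p.Prime) :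
    ∃ w : ℤ[X], (X + 1) ^ p = X ^ p + 1 + (p : ℤ[X]) * X * (1 + X * w) := by
  obtain ⟨r, hr⟩ := (Commute.one_right (X : ℤ[X])).exists_add_pow_prime_eq hp
  rw [one_pow, mul_one] at hr
  have h0 : r.coeff 0 = 1 := by
    have h := congrArg (fun q : ℤ[X] => q.coeff 1) hr
    simp only [Polynomial.coeff_X_add_one_pow, coeff_add, mul_assoc, coeff_natCast_mul,
      coeff_X_mul, coeff_X_pow, coeff_one, Nat.choose_one_right] at h
    rw [if_neg (by exact fun h => hp.one_lt.ne h), if_neg one_ne_zero, zero_add, zero_add] at h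
    have : (p : ℤ) ≠ 0 := by exact_mod_cast hp.ne_zero
    exact (mul_left_cancel₀ this ((mul_one _).trans h)).symm
  obtain ⟨w, hw⟩ := X_dvd_iff.2 (show (r - 1).coeff 0 = 0 by simp [h0])
  exact ⟨w, by rw [hr, eq_add_of_sub_eq' hw]⟩

/-- If `δ` is nilpotent of exponent `n(p-1)+1` and `(1+δ)^p = 1` then `pⁿ δ = 0`. -/
theorem nsmul_eq_zero {p : ℕ} (hp : p.Prime) {R : Type*} [Ring R] (δ : R) (n : ℕ)
    (hδ : δ ^ (n * (p - 1) + 1) = 0) (hu : (δ + 1) ^ p = 1) : (p : R) ^ n * δ = 0 := by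
  obtain ⟨w, hw⟩ := exists_pow_prime_sub hp
  have h : (δ + 1) ^ p = δ ^ p + 1 + (p : R) * δ * (1 + δ * aeval δ w) := by
    have h' := congrArg (aeval δ : ℤ[X] →ₐ[ℤ] R) hw
    simpa using h'
  rw [hu] at h
  have hcomm : Commute δ (aeval δ w) := by
    have h' := (Commute.all (X : ℤ[X]) w).map (aeval δ : ℤ[X] →ₐ[ℤ] R)
    simpa using h'
  have hnil : IsNilpotent (δ * aeval δ w) := hcomm.isNilpotent_mul_right ⟨_, hδ⟩
  obtain ⟨e, he⟩ := hnil.isUnit_one_add
  have hce : Commute δ (↑e : R) := by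
    rw [he]; exact (Commute.one_right δ).add_right ((Commute.refl δ).mul_right hcomm)
  have key : (p : R) * δ = -δ ^ p * (↑e⁻¹ : R) := by
    rw [← he] at h
    have : (p : R) * δ * ↑e = -δ ^ p := by
      have h' := h.symm
      rw [add_right_comm] at h'
      exact eq_neg_of_add_eq_zero_right (add_eq_right.1 h')
    rw [← this, Units.mul_inv_cancel_right]
  have main : ∀ k, (p : R) ^ k * δ = (-1) ^ k * δ ^ (k * (p - 1) + 1) * (↑e⁻¹ : R) ^ k := by
    intro k
    induction k with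
    | zero => simp
    | succ k ih =>
      have hpc : ∀ x : R, Commute (p : R) x := fun x => Nat.cast_commute p x
      rw [pow_succ', mul_assoc, ih]
      have e1 : (p : R) * ((-1) ^ k * δ ^ (k * (p - 1) + 1) * (↑e⁻¹ : R) ^ k) =
          (-1) ^ k * δ ^ (k * (p - 1)) * ((p : R) * δ) * (↑e⁻¹ : R) ^ k := by
        rw [pow_succ, ← mul_assoc ((-1 : R) ^ k), ← mul_assoc (p : R), ← mul_assoc (p : R),
          (hpc _).eq, mul_assoc ((-1 : R) ^ k * δ ^ (k * (p - 1))) (p : R) δ]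
      rw [e1, key, show (k + 1) * (p - 1) + 1 = k * (p - 1) + p by
          rw [add_one_mul, add_assoc, Nat.sub_add_cancel hp.one_le],
        pow_add δ, pow_succ' (↑e⁻¹ : R), pow_succ (-1 : R) k]
      simp only [neg_mul, mul_neg, mul_one, mul_assoc]
  rw [main n, hδ, mul_zero, zero_mul]

end algebra

variable {Ω : Type*} [Group Ω] {S : Subgroup Ω} [Finite S] {p : ℕ} [Fact p.Prime]

/-- An element of order `p` modulo `R` fixes `℧ⁿ(Z(R))` pointwise. -/
theorem fix_pow (n : ℕ) (hcl : Subgroup.lowerCentralSeries S (n * (p - 1) + 1) = ⊥) {R : Subgroup Ω}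
    (hR : R ≤ S) {g : Ω} (hg : g ∈ S) (hgN : g ∈ Subgroup.normalizer (R : Set Ω)) (hgp : g ^ p ∈ R)
    {a : Ω} (ha : a ∈ R) (haC : ∀ r ∈ R, r * a = a * r) :
    g * a ^ p ^ n * g⁻¹ = a ^ p ^ n := by
  let A : Subgroup Ω := R ⊓ Subgroup.centralizer (R : Set Ω)
  have hA : ∀ x ∈ A, g * x * g⁻¹ * x⁻¹ ∈ A := fun x hx => by
    refine A.mul_mem ⟨conj_mem_of_normalizer hgN hx.1, fun r hr => ?_⟩ (A.inv_mem hx)
    have hr' := conj_mem_of_normalizer (Subgroup.inv_mem _ hgN) hr
    rw [inv_inv] at hr'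
    have h := hx.2 _ hr'
    calc r * (g * x * g⁻¹) = g * (g⁻¹ * r * g * x) * g⁻¹ := by group
      _ = g * (x * (g⁻¹ * r * g)) * g⁻¹ := by rw [h]
      _ = g * x * g⁻¹ * r := by group
  letI : CommGroup A :=
    { (inferInstance : Group A) with mul_comm := fun x y => Subtype.ext (y.2.2 _ x.2.1) }
  let δ : AddMonoid.End (Additive A) := MonoidHom.toAdditive
    (MonoidHom.mk' (fun x : A => (⟨g * x * g⁻¹ * (x : Ω)⁻¹, hA x x.2⟩ : A)) fun x y => by
      apply Subtype.ext
      show g * ((x : Ω) * y) * g⁻¹ * ((x : Ω) * y)⁻¹ =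
        g * x * g⁻¹ * (x : Ω)⁻¹ * (g * y * g⁻¹ * (y : Ω)⁻¹)
      have h := (hA _ y.2).2 _ (R.inv_mem x.2.1)
      calc g * ((x : Ω) * y) * g⁻¹ * ((x : Ω) * y)⁻¹
          = g * x * g⁻¹ * ((g * y * g⁻¹ * (y : Ω)⁻¹) * (x : Ω)⁻¹) := by group
        _ = g * x * g⁻¹ * ((x : Ω)⁻¹ * (g * y * g⁻¹ * (y : Ω)⁻¹)) := by rw [h]
        _ = _ := by group)
  have happ : ∀ x : Additive A, (((δ + 1) x).toMul : Ω) = g * (x.toMul : Ω) * g⁻¹ := by
    intro x
    show g * (x.toMul : Ω) * g⁻¹ * (x.toMul : Ω)⁻¹ * (x.toMul : Ω) = _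
    group
  have hpow : ∀ (k : ℕ) (x : Additive A),
      ((((δ + 1) ^ k) x).toMul : Ω) = g ^ k * (x.toMul : Ω) * (g ^ k)⁻¹ := by
    intro k
    induction k with
    | zero => intro x; simp
    | succ k ih =>
      intro x
      rw [pow_succ', AddMonoid.End.coe_mul, Function.comp_apply, happ, ih, pow_succ' g]
      group
  have hu : (δ + 1) ^ p = 1 := by
    refine AddMonoidHom.ext fun x => ?_
    apply Additive.toMul.injective
    apply Subtype.ext
    refine (hpow p x).trans ?_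
    show g ^ p * (x.toMul : Ω) * (g ^ p)⁻¹ = _
    rw [x.toMul.2.2 _ hgp, mul_inv_cancel_right]
    rfl
  have hlcs : ∀ (k : ℕ) (x : Additive A),
      (((δ ^ k) x).toMul : Ω) ∈ Subgroup.lowerCentralSeries S k := by
    intro k
    induction k with
    | zero => intro x; exact hR x.toMul.2.1
    | succ k ih =>
      intro x
      rw [pow_succ', AddMonoid.End.coe_mul, Function.comp_apply, Subgroup.lowerCentralSeries_succ]
      set y := ((((δ ^ k) x).toMul : A) : Ω) with hy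
      show g * y * g⁻¹ * y⁻¹ ∈ _
      have h := Subgroup.commutator_mem_commutator (ih x) hg
      rw [commutatorElement_def, ← hy] at h
      have h' := inv_mem h
      convert h' using 1
      group
  have hδ : δ ^ (n * (p - 1) + 1) = 0 := by
    refine AddMonoidHom.ext fun x => ?_
    apply Additive.toMul.injective
    apply Subtype.ext
    have := hlcs (n * (p - 1) + 1) x
    rw [hcl, Subgroup.mem_bot] at this
    exact this
  have hz := nsmul_eq_zero (Fact.out : p.Prime) δ n hδ hu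
  let a' : A := ⟨a, ha, haC⟩
  have hza := DFunLike.congr_fun hz (Additive.ofMul a')
  rw [← Nat.cast_pow, Nat.cast_comm, AddMonoid.End.coe_mul, Function.comp_apply] at hza
  have he : ((p ^ n : ℕ) : AddMonoid.End (Additive A)) (Additive.ofMul a') =
      Additive.ofMul (a' ^ p ^ n) := by
    rw [AddMonoid.End.natCast_apply]; rfl
  rw [he] at hza
  have := congrArg (fun y : Additive A => (y.toMul : Ω)) hza
  have h2 : g * a ^ p ^ n * g⁻¹ * (a ^ p ^ n)⁻¹ = 1 := this
  exact mul_inv_eq_one.1 h2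

theorem exists_normalizing_pow_mem (hS : IsPGroup p S) {R : Subgroup Ω} (hR : R ≤ S) (hne : R ≠ S) :
    ∃ g ∈ normalizerIn S R, g ∉ R ∧ g ^ p ∈ R := by
  classical
  obtain ⟨h, hh, hhR⟩ := exists_normalizing_not_mem hS hR hne
  obtain ⟨k, hk⟩ := hS ⟨h, hh.1⟩
  have hex : ∃ k, h ^ p ^ k ∈ R := ⟨k, by
    rw [show h ^ p ^ k = 1 from congrArg Subtype.val hk]; exact R.one_mem⟩
  have hk0 : 0 < Nat.find hex := by
    rw [Nat.find_pos]; simpa using hhR
  refine ⟨h ^ p ^ (Nat.find hex - 1), pow_mem hh _, Nat.find_min hex (by omega), ?_⟩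
  rw [← pow_mul, ← pow_succ, Nat.sub_add_cancel hk0]
  exact Nat.find_spec hex

theorem aut_preserves (hS : IsPGroup p S) {F : Cfsg.FusionSystem S} (hF : F.IsSaturated p) (n : ℕ)
    (hcl : Subgroup.lowerCentralSeries S (n * (p - 1) + 1) = ⊥) {R : Subgroup Ω}
    (hR : IsAlperinSubgroup F p R) :
    ∀ α ∈ F.autGroup R, ∀ x : R,
      (x : Ω) ∈ Cfsg.powerClosure p n (S ⊓ Subgroup.centralizer (S : Set Ω)) →
      ((α x : R) : Ω) ∈ Cfsg.powerClosure p n (S ⊓ Subgroup.centralizer (S : Set Ω)) := by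
  classical
  set Z := Cfsg.powerClosure p n (S ⊓ Subgroup.centralizer (S : Set Ω)) with hZ
  induction hm : Nat.card S - Nat.card R using Nat.strong_induction_on generalizing R with
  | _ m ih =>
  intro α hα x hx
  by_cases htop : R = S
  · subst htop
    have hmap : Z ≤ (Z.comap (R.subtype.comp α.toMonoidHom)).map R.subtype := by
      rw [hZ, Cfsg.powerClosure, Subgroup.closure_le]
      rintro _ ⟨z, hz, rfl⟩
      refine ⟨(⟨z, hz.1⟩ : R) ^ p ^ n, ?_, by simp⟩
      refine show (((α ((⟨z, hz.1⟩ : R) ^ p ^ n)) : R) : Ω) ∈ Z from ?_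
      rw [map_pow, Subgroup.coe_pow]
      refine Subgroup.subset_closure ⟨((α ⟨z, hz.1⟩ : R) : Ω), ⟨(α ⟨z, hz.1⟩).2, fun s hs => ?_⟩, rfl⟩
      have h := congrArg (fun y => ((α y : R) : Ω))
        (show α.symm ⟨s, hs⟩ * ⟨z, hz.1⟩ = ⟨z, hz.1⟩ * α.symm ⟨s, hs⟩ from
          Subtype.ext (hz.2 _ (α.symm ⟨s, hs⟩).2))
      simpa using h
    obtain ⟨y, hy, hyx⟩ := hmap hx
    obtain rfl : y = x := Subtype.ext hyx
    exact hy
  have hRS := hR.centric.1
  have : Finite R := finite_of_le hRS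
  have : Finite (MulAut R) := finite_mulAut R
  have hZR : ∀ z ∈ S ⊓ Subgroup.centralizer (S : Set Ω), z ∈ R ⊓ Subgroup.centralizer (R : Set Ω) :=
    fun z hz => ⟨centralizerIn_le_of_centric hR.centric ⟨hz.1, fun r hr => hz.2 r (hRS hr)⟩,
      fun r hr => hz.2 r (hRS hr)⟩
  -- automorphisms fixing `℧ⁿ Z(R)` pointwise
  let G := F.autGroup R
  let K : Subgroup G :=
    { carrier := {β | ∀ a : R, (∀ r, r * a = a * r) → (β : MulAut R) (a ^ p ^ n) = a ^ p ^ n}
      one_mem' := fun a _ => rfl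
      mul_mem' := fun {b c} hb hc a ha => by
        show (b : MulAut R) ((c : MulAut R) (a ^ p ^ n)) = _
        rw [hc a ha, hb a ha]
      inv_mem' := fun {b} hb a ha => by
        show (b : MulAut R).symm (a ^ p ^ n) = _
        rw [MulEquiv.symm_apply_eq, hb a ha] }
  have hKn : K.Normal := ⟨fun b hb c a ha => by
    show (c : MulAut R) ((b : MulAut R) ((c : MulAut R).symm (a ^ p ^ n))) = _
    rw [map_pow, hb _ fun r => by
      apply (c : MulAut R).injective
      simpa using ha ((c : MulAut R) r), map_pow, MulEquiv.apply_symm_apply]⟩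
  obtain ⟨g, hgN, hgR, hgp⟩ := exists_normalizing_pow_mem hS hRS htop
  let u : G := ⟨conjAut hgN.2, autInducedBy_le_autGroup F hRS (conjAut_mem_autInducedBy hgN.2 hgN.1)⟩
  have huK : u ∈ K := fun a ha => Subtype.ext (by
    show g * ((a ^ p ^ n : R) : Ω) * g⁻¹ = _
    rw [Subgroup.coe_pow]
    exact fix_pow n hcl hRS hgN.1 hgN.2 hgp a.2 fun r hr => congrArg Subtype.val (ha ⟨r, hr⟩))
  obtain ⟨P, hP⟩ := (fullyNormalized_props hS hF hR.fullyNormalized).1.2
  -- a Sylow subgroup of `K` is cut out by `P`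
  obtain ⟨PK, hPK⟩ := (P.isPGroup'.comap_subtype (K := K)).exists_le_sylow
  have hPKeq : (PK : Subgroup K).map K.subtype = (P : Subgroup G) ⊓ K := by
    refine (Subgroup.eq_of_le_of_card_ge ?_ ?_).symm
    · intro y hy
      exact ⟨⟨y, hy.2⟩, hPK hy.1, rfl⟩
    · obtain ⟨Q, hQ⟩ := (PK.isPGroup'.map K.subtype).exists_le_sylow
      obtain ⟨c, rfl⟩ := MulAction.exists_smul_eq G P Q
      have hle : (PK : Subgroup K).map K.subtype ≤ ((P : Subgroup G) ⊓ K).map (MulAut.conj c).toMonoidHom := by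
        intro y hy
        have hyK : y ∈ K := by obtain ⟨z, -, rfl⟩ := hy; exact z.2
        obtain ⟨z, hz, rfl⟩ := hQ hy
        refine ⟨z, ⟨hz, ?_⟩, rfl⟩
        have h' : c * z * c⁻¹ ∈ K := hyK
        have := hKn.conj_mem _ h' c⁻¹
        simpa [mul_assoc] using this
      refine (Subgroup.card_le_of_le hle).trans ?_
      rw [Subgroup.card_map_of_injective (MulAut.conj c).injective]
  have hfr := Sylow.normalizer_sup_eq_top PK
  rw [hPKeq] at hfr
  have hmem : (⟨α, hα⟩ : G) ∈ Subgroup.normalizer (((P : Subgroup G) ⊓ K : Subgroup G) : Set G) ⊔ K :=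
    hfr ▸ Subgroup.mem_top _
  rw [Subgroup.mem_sup_of_normal_right] at hmem
  obtain ⟨ν, hν, κ, hκ, hνκ⟩ := hmem
  -- `κ` fixes `Z` pointwise
  have hκfix : ((κ : MulAut R) x : R) = x := by
    have hle : Z ≤ ((MonoidHom.eqLocus (κ : MulAut R).toMonoidHom (MonoidHom.id R))).map R.subtype := by
      rw [hZ, Cfsg.powerClosure, Subgroup.closure_le]
      rintro _ ⟨z, hz, rfl⟩
      refine ⟨(⟨z, (hZR z hz).1⟩ : R) ^ p ^ n, ?_, by simp⟩
      exact hκ _ fun r => Subtype.ext ((hZR z hz).2 r r.2)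
    obtain ⟨y, hy, hyx⟩ := hle hx
    obtain rfl : y = x := Subtype.ext hyx
    exact hy
  have hαν : α x = (ν : MulAut R) x := by
    have h : (ν : MulAut R) * (κ : MulAut R) = α := congrArg Subtype.val hνκ
    rw [← h, MulAut.mul_apply, hκfix]
  rw [hαν]
  -- `ν` extends to a bigger subgroup
  have huP : u ∈ (P : Subgroup G) ⊓ K := ⟨by
    rw [hP]; exact conjAut_mem_autInducedBy hgN.2 hgN.1, huK⟩
  have hconj : (ν : MulAut R) * conjAut hgN.2 * (ν : MulAut R)⁻¹ ∈ Cfsg.autInducedBy S R := by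
    have h := ((Subgroup.mem_normalizer_iff.1 hν u).1 huP).1
    rw [hP] at h
    exact h
  obtain ⟨N, hRN, ψ, hψ, hlt, hψe⟩ :=
    exists_extend_aut hS hF hR.fullyNormalized ν.2 hgN.1 hgN.2 hgR hconj
  have hC : Nat.card R < Nat.card N → ∀ y : N, ((y : Ω) ∈ Z ↔ ψ y ∈ Z) := by
    refine hom_induction hS hF
      (C := fun P φ => Nat.card R < Nat.card P → ∀ y : P, ((y : Ω) ∈ Z ↔ φ y ∈ Z))
      ?_ ?_ ?_ ?_ hψ
    · intro T hT β hβ hlt y
      have hT' : Nat.card T ≤ Nat.card S := Subgroup.card_le_of_le hT.centric.1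
      have hm' : Nat.card S - Nat.card T < m := by omega
      refine ⟨fun hy => ih _ hm' hT rfl β hβ y hy, fun hy => ?_⟩
      have h := ih _ hm' hT rfl β⁻¹ (inv_mem hβ) (β y) hy
      rwa [MulAut.inv_apply, MulEquiv.symm_apply_apply] at h
    · intro P Q hPQ ψ' _ h hlt y
      have : Finite Q := finite_of_le (hom_le F ‹_›)
      exact h (hlt.trans_le (Subgroup.card_le_of_le hPQ)) (Subgroup.inclusion hPQ y)
    · intro P Q φ χ hφ hχ hin h1 h2 hlt y
      have : Finite Q := finite_of_le (hom_le F hχ)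
      have hcard : Nat.card P ≤ Nat.card Q := Nat.card_le_card_of_injective
        (fun z => (⟨φ z, hin z⟩ : Q)) fun a b h => F.injective_of_mem hφ (congrArg Subtype.val h)
      exact (h1 hlt y).trans (h2 (hlt.trans_le hcard) ⟨φ y, hin y⟩)
    · intro P Q φ χ hφ _ hr hinv h hlt y
      obtain ⟨z, hz⟩ : (y : Ω) ∈ φ.range := hr.symm ▸ y.2
      have hlt' : Nat.card R < Nat.card P := by
        rwa [isConj_card (isConj_of_hom F hφ), hr]
      have := h hlt' z
      have e : χ y = (z : Ω) := by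
        have h3 := hinv z (by rw [hz]; exact y.2)
        rw [← h3]; congr 1; exact Subtype.ext hz.symm
      rw [e, this, hz]
  have e : ψ (Subgroup.inclusion hRN x) = (((ν : MulAut R) x : R) : Ω) := DFunLike.congr_fun hψe x
  rw [← e]
  exact (hC hlt _).1 hx

theorem isNormal_powerClosure (hS : IsPGroup p S) {F : Cfsg.FusionSystem S} (hF : F.IsSaturated p)
    (n : ℕ) (hcl : Subgroup.lowerCentralSeries S (n * (p - 1) + 1) = ⊥) :
    F.IsNormal (Cfsg.powerClosure p n (S ⊓ Subgroup.centralizer (S : Set Ω))) := by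
  refine isNormal_criterion hS hF ?_ (fun R hR => ?_) fun R hR => aut_preserves hS hF n hcl hR
  · rw [Cfsg.powerClosure, Subgroup.closure_le]
    rintro _ ⟨z, hz, rfl⟩
    exact pow_mem hz.1 _
  · rw [Cfsg.powerClosure, Subgroup.closure_le]
    rintro _ ⟨z, hz, rfl⟩
    exact pow_mem (centralizerIn_le_of_centric hR.centric ⟨hz.1, fun r hr => hz.2 r (hR.centric.1 hr)⟩) _

end CfsgLib.FusPowerCentre
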